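import Cfsg.Agent.H81.Cover
import Cfsg.Agent.H81.Perfect

/-! Double covers of a perfect group whose multiplier has order four and whose three double covers are permuted by
the automorphism group. -/

set_option autoImplicit false

namespace Cfsg.Agent.STD.O8

open Subgroup Function

variable {X Y Γ Ω : Type*} [Group X] [Group Y] [Group Γ] [Group Ω]

/-- the automorphisms of `Ω` which lift along `σ` -/
def Lift (σ : X →* Ω) : Subgroup (MulAut Ω) where
  carrier := {α | ∃ e : X ≃* X, ∀ x, σ (e x) = α (σ x)}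
  one_mem' := ⟨MulEquiv.refl X, fun _ => rfl⟩
  mul_mem' := by
    rintro a b ⟨e, he⟩ ⟨f, hf⟩
    exact ⟨f.trans e, fun x => by rw [MulEquiv.trans_apply, he, hf]; rfl⟩
  inv_mem' := by
    rintro a ⟨e, he⟩
    exact ⟨e.symm, fun x => a.injective (by rw [← he]; simp)⟩

theorem card_of_surj [Finite X] {σ : X →* Ω} (h : Surjective σ) :
    Nat.card X = Nat.card Ω * Nat.card σ.ker := by
  rw [card_eq_card_quotient_mul_card_subgroup σ.ker,
    Nat.card_congr (QuotientGroup.quotientKerEquivOfSurjective σ h).toEquiv]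

theorem equiv_of_ker {η : Γ →* X} {θ : Γ →* Y} (h1 : Surjective η) (h2 : Surjective θ)
    (h : η.ker = θ.ker) : ∃ e : X ≃* Y, ∀ g, e (η g) = θ g := by
  refine ⟨((QuotientGroup.quotientKerEquivOfSurjective η h1).symm.trans
    (QuotientGroup.quotientMulEquivOfEq h)).trans (QuotientGroup.quotientKerEquivOfSurjective θ h2),
    fun g => ?_⟩
  rw [MulEquiv.trans_apply, MulEquiv.trans_apply,
    show (QuotientGroup.quotientKerEquivOfSurjective η h1).symm (η g) = (g : Γ ⧸ η.ker) from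
      (MulEquiv.symm_apply_eq _).2 rfl]
  rfl

theorem exists_u {A : Type*} [CommGroup A] (hM : HasSchurMultiplier Ω A) (hA : Nat.card A = 4)
    (hp : Group.IsPerfect Ω) [Finite Γ] {τ : Γ →* Ω} (hτ : IsStemExtension τ) (hk : Nat.card τ.ker = 4)
    [Finite Y] {ξ : Y →* Ω} (hξ : IsStemExtension ξ) (h2 : Nat.card ξ.ker = 2) :
    ∃ u : {u : τ.ker // u ≠ 1}, ∃ η : Γ →* Y, Surjective η ∧ (∀ g, ξ (η g) = τ g) ∧
      ∀ g, g ∈ η.ker ↔ g = 1 ∨ g = u.1.1 := by
  have : Finite Ω := Finite.of_surjective _ hτ.1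
  obtain ⟨η, hη⟩ := H81.exists_lift_of_perfect (H81.isPerfect_of_stem hp hτ) τ hξ.1
    (H81.pb_inj_of_cover hM hτ (by rw [hk, hA]) hξ.1 hξ.2.1)
  have hs := H81.surjective_of_lift_stem hτ.1 hξ hη
  have e : ∀ g, ξ (η g) = τ g := DFunLike.congr_fun hη
  have h3 := card_of_surj hs
  rw [card_of_surj hτ.1, card_of_surj hξ.1, hk, h2, mul_assoc] at h3
  obtain ⟨w, h4, h5⟩ := (Nat.card_eq_two_iff' (1 : η.ker)).1
    (by have := Nat.eq_of_mul_eq_mul_left Nat.card_pos h3; omega)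
  refine ⟨⟨⟨w.1, by rw [MonoidHom.mem_ker, ← e, MonoidHom.mem_ker.1 w.2, map_one]⟩,
    fun t => h4 (Subtype.ext (congrArg (fun x : τ.ker => x.1) t))⟩, η, hs, e, fun g => ⟨fun hg => ?_, ?_⟩⟩
  · exact or_iff_not_imp_left.2 fun c => congrArg Subtype.val
      (h5 ⟨g, hg⟩ fun t => c (congrArg Subtype.val t))
  · rintro (rfl | rfl)
    exacts [one_mem _, w.2]

theorem cover3 {A : Type*} [CommGroup A] (hM : HasSchurMultiplier Ω A) (hA : Nat.card A = 4)
    (hp : Group.IsPerfect Ω) [Finite X] {σ : X →* Ω} (hσ : IsStemExtension σ) (hk : Nat.card σ.ker = 2)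
    (h3 : (Lift σ).index = 3) [Finite Y] {ξ : Y →* Ω} (hξ : IsStemExtension ξ)
    (h2 : Nat.card ξ.ker = 2) : Nonempty (Y ≃* X) := by
  obtain ⟨Γ, _, _, τ, hτ, ⟨e⟩⟩ := hM.1
  have h4 : Nat.card τ.ker = 4 := (Nat.card_congr e.toEquiv).trans hA
  have hk' : ∀ α : MulAut Ω, (α.toMonoidHom.comp σ).ker = σ.ker := fun α =>
    Subgroup.ext fun x => α.map_eq_one_iff
  choose u η s1 s2 s3 using fun α : MulAut Ω => exists_u hM hA hp hτ h4 (ξ := α.toMonoidHom.comp σ)
    ⟨α.surjective.comp hσ.1, hk' α ▸ hσ.2.1, hk' α ▸ hσ.2.2⟩ (hk' α ▸ hk)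
  obtain ⟨v, θ, t1, -, t3⟩ := exists_u hM hA hp hτ h4 hξ h2
  have hi : Injective fun q : MulAut Ω ⧸ Lift σ => u q.out := fun p q hpq => by
    obtain ⟨f, hf⟩ := equiv_of_ker (s1 q.out) (s1 p.out)
      (Subgroup.ext fun g => by rw [s3, s3, show u p.out = u q.out from hpq])
    refine (QuotientGroup.out_eq' p).symm.trans ((QuotientGroup.eq.2
      (show p.out⁻¹ * q.out ∈ Lift σ from ⟨f, fun x => p.out.injective ?_⟩)).trans
        (QuotientGroup.out_eq' q))
    obtain ⟨g, rfl⟩ := s1 q.out x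
    rw [hf]
    exact (s2 _ g).trans ((s2 q.out g).symm.trans (by simp))
  have : Finite τ.ker := inferInstance
  obtain ⟨q, hq⟩ := (hi.bijective_of_nat_card_le (by
    classical
    have := Fintype.ofFinite τ.ker
    rw [show Nat.card (MulAut Ω ⧸ Lift σ) = 3 from h3, Nat.card_eq_fintype_card,
      Fintype.card_subtype_compl, Fintype.card_subtype_eq, ← Nat.card_eq_fintype_card, h4])).2 v
  obtain ⟨f, -⟩ := equiv_of_ker t1 (s1 q.out)
    (Subgroup.ext fun g => by rw [s3, t3, show u q.out = v from hq])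
  exact ⟨f⟩

/-- an automorphism fixing the kernel induces an automorphism of the image -/
theorem exists_ind [Finite Ω] {σ : X →* Ω} (hs : Surjective σ) (e : X ≃* X)
    (h : ∀ x ∈ σ.ker, e x ∈ σ.ker) : ∃ α : MulAut Ω, ∀ x, σ (e x) = α (σ x) := by
  let f : Ω →* Ω := σ.liftOfSurjective hs ⟨σ.comp e.toMonoidHom, h⟩
  have hf : ∀ x, f (σ x) = σ (e x) := fun x => σ.liftOfRightInverse_comp_apply _ _ _ x
  have h1 : Surjective f := fun y => by
    obtain ⟨x, rfl⟩ := hs y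
    exact ⟨σ (e.symm x), by rw [hf, e.apply_symm_apply]⟩
  exact ⟨MulEquiv.ofBijective f (Finite.surjective_iff_bijective.1 h1), fun x => (hf x).symm⟩

end Cfsg.Agent.STD.O8
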