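import Cfsg.Agent.H14.Local

/-! Homomorphisms between permutation groups from an invariant incidence; normal subgroups of coprime index;
the subgroup generated by the elements of odd order of a centraliser. -/

set_option autoImplicit false

namespace Cfsg.Agent.STD.O8

open Cfsg.Agent.H14 Subgroup

/-- the pair `(P, Q)` preserves the incidence with rows `row` -/
noncomputable def incOK (k M n k' M' n' : ℕ) (row : ℕ → ℕ) (P Q : ℕ) : Bool :=
  valid k M n P && valid k' M' n' Q && allN n fun x => force (row x) fun r =>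
    force (row (app k M P x)) fun s => allN n' fun p =>
      Bool.rec (!(tb r p)) (tb r p) (tb s (app k' M' Q p))

noncomputable def colOK (n n' : ℕ) (row : ℕ → ℕ) : Bool :=
  allN n' fun p => allN n' fun q => Nat.beq p q ||
    anyN n fun x => force (row x) fun r => tb r p && !(tb r q)

noncomputable def rowOK (n n' : ℕ) (row : ℕ → ℕ) : Bool :=
  allN n fun x => force (row x) fun r => Nat.ble (Nat.succ r) (Nat.pow 2 n') &&
    allN n fun y => Nat.beq x y || !(Nat.beq r (row y))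

/-- `qs` generate a normal subgroup with chain `qcs` of the group with chain `HL` and generators `hs` -/
noncomputable def subOK (k M n : ℕ) (HL : List Lev) (hs qs : List ℕ) (qcs : List LevCert) : Bool :=
  allL qs (fun P => valid k M n P && sift k M n HL P) && ssOK k M n qcs qs &&
    normOK k M n (qcs.map LevCert.L) hs qs

noncomputable def oddOK (k M n P : ℕ) : Bool := Nat.beq (Nat.mod (ordN k M n P 16) 2) 1

section
variable {G : Type*} [Group G]

/-- the subgroup generated by the elements of odd order of `W` commuting with `w` -/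
def SS (W : Subgroup G) (w : G) : Subgroup G := closure {y | y ∈ W ∧ Odd (orderOf y) ∧ Commute y w}

theorem mem_of_coprime [Finite G] {H Q : Subgroup G} (h1 : Q ≤ H)
    (h2 : ∀ g ∈ H, ∀ q ∈ Q, g * q * g⁻¹ ∈ Q) {j : ℕ} (h3 : Nat.card H = j * Nat.card Q) {y : G}
    (hy : y ∈ H) (hc : (orderOf y).Coprime j) : y ∈ Q := by
  have : (Q.subgroupOf H).Normal := ⟨fun q hq g => h2 g g.2 q hq⟩
  have h4 := (Q.subgroupOf H).index_mul_card
  rw [Nat.card_congr (subgroupOfEquivOfLe h1).toEquiv, h3] at h4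
  have h5 : y ^ j ∈ Q := by
    have := (Q.subgroupOf H).pow_index_mem ⟨y, hy⟩
    rwa [Nat.eq_of_mul_eq_mul_right Nat.card_pos h4] at this
  obtain ⟨m, hm⟩ := exists_pow_eq_self_of_coprime hc.symm
  exact hm ▸ pow_mem h5 m

end

variable {α β : Type*} {n k M n' k' M' : ℕ} (E : Enc α n k M) (E' : Enc β n' k' M') (row : ℕ → ℕ)

/-- the pairs preserving an incidence -/
def Inc : Subgroup (Equiv.Perm α × Equiv.Perm β) where
  carrier := {z | ∀ x p, tb (row (E.ix (z.1 x))) (E'.ix (z.2 p)) = tb (row (E.ix x)) (E'.ix p)}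
  one_mem' _ _ := rfl
  mul_mem' ha hb x p := (ha _ _).trans (hb x p)
  inv_mem' {z} h x p := by simpa using (h (z.1⁻¹ x) (z.2⁻¹ p)).symm

variable {E E' row}

theorem mem_Inc {P Q : ℕ} (h : incOK k M n k' M' n' row P Q = true) :
    E.pk (E.perm P) = P ∧ E'.pk (E'.perm Q) = Q ∧ (E.perm P, E'.perm Q) ∈ Inc E E' row := by
  simp only [incOK, Bool.and_eq_true, allN_iff, force_eq] at h
  refine ⟨E.pk_perm h.1.1, E'.pk_perm h.1.2, fun x p => ?_⟩
  have := h.2 _ (E.ix_lt x) _ (E'.ix_lt p)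
  rw [← E.pk_perm h.1.1, ← E'.pk_perm h.1.2, E.app_pk, E'.app_pk] at this
  revert this
  cases tb (row (E.ix (E.perm P x))) (E'.ix (E'.perm Q p)) <;> simp

theorem Inc_right (h : colOK n n' row = true) {g : Equiv.Perm α} {a b : Equiv.Perm β}
    (ha : (g, a) ∈ Inc E E' row) (hb : (g, b) ∈ Inc E E' row) : a = b := by
  simp only [colOK, allN_iff, Bool.or_eq_true, beq_iff, anyN_iff, force_eq, Bool.and_eq_true,
    Bool.not_eq_true'] at h
  refine Equiv.ext fun p => E'.ix_injective ((h _ (E'.ix_lt _) _ (E'.ix_lt _)).resolve_right ?_)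
  rintro ⟨x, hx, h1, h2⟩
  have e := (ha (g⁻¹ (E.pt x)) p).trans (hb (g⁻¹ (E.pt x)) p).symm
  simp [E.ix_pt x hx, h1, h2] at e

theorem Inc_left (h : rowOK n n' row = true) {a b : Equiv.Perm α} {g : Equiv.Perm β}
    (ha : (a, g) ∈ Inc E E' row) (hb : (b, g) ∈ Inc E E' row) : a = b := by
  simp only [rowOK, allN_iff, Bool.or_eq_true, beq_iff, force_eq, Bool.and_eq_true, ble_iff,
    Bool.not_eq_true', ← Bool.not_eq_true] at h
  refine Equiv.ext fun x => E.ix_injective (((h _ (E.ix_lt _)).2 _ (E.ix_lt _)).resolve_right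
    fun h1 => h1 (Nat.eq_of_testBit_eq fun i => ?_))
  rcases lt_or_ge i n' with hi | hi
  · have e := (ha x (g⁻¹ (E'.pt i))).trans (hb x (g⁻¹ (E'.pt i))).symm
    simpa [E'.ix_pt i hi, tb_eq] using e
  · have h2 : ∀ y, (row (E.ix y)).testBit i = false := fun y => Nat.testBit_lt_two_pow
      (lt_of_lt_of_le (h _ (E.ix_lt y)).1 (Nat.pow_le_pow_right (by decide) hi))
    rw [h2, h2]

theorem exists_hom (h : colOK n n' row = true) {gs : List (ℕ × ℕ)}
    (hg : allL gs (fun z => incOK k M n k' M' n' row z.1 z.2) = true) :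
    ∃ χ : E.grp (gs.map Prod.fst) →* Equiv.Perm β, (∀ g, (g.1, χ g) ∈ Inc E E' row) ∧
      χ.range = E'.grp (gs.map Prod.snd) := by
  rw [allL_iff] at hg
  have h1 : ∀ g : E.grp (gs.map Prod.fst), ∃ a ∈ E'.grp (gs.map Prod.snd), (g.1, a) ∈ Inc E E' row := by
    have : E.grp (gs.map Prod.fst) ≤
        (Inc E E' row ⊓ (E'.grp (gs.map Prod.snd)).comap (MonoidHom.snd _ _)).map (MonoidHom.fst _ _) := by
      refine Enc.grp_induction fun g hg' => ?_
      obtain ⟨z, hz, e⟩ := List.mem_map.1 hg'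
      obtain ⟨-, e2, e3⟩ := mem_Inc (E := E) (E' := E') (hg z hz)
      rw [e, E.perm_pk] at e3
      exact ⟨_, ⟨e3, subset_closure (List.mem_map.2 ⟨z, hz, e2.symm⟩)⟩, rfl⟩
    intro g
    obtain ⟨z, hz, e⟩ := this g.2
    exact ⟨z.2, hz.2, e ▸ hz.1⟩
  choose f f1 f2 using h1
  refine ⟨MonoidHom.mk' f fun a b => Inc_right h (f2 _) (mul_mem (f2 a) (f2 b)), f2,
    le_antisymm (by rintro _ ⟨g, rfl⟩; exact f1 g) (Enc.grp_induction fun a ha => ?_)⟩
  obtain ⟨z, hz, e⟩ := List.mem_map.1 ha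
  obtain ⟨e1, -, e3⟩ := mem_Inc (E := E) (E' := E') (hg z hz)
  rw [e, E'.perm_pk] at e3
  exact ⟨⟨_, subset_closure (List.mem_map.2 ⟨z, hz, e1.symm⟩)⟩, Inc_right h (f2 _) e3⟩

theorem of_subOK {H : Subgroup (Equiv.Perm α)} {HL : List Lev} (hH : E.IsChain HL H) {hs qs : List ℕ}
    (he : H = E.grp hs) {qcs : List LevCert} (h : subOK k M n HL hs qs qcs = true) :
    E.IsChain (qcs.map LevCert.L) (E.grp qs) ∧ E.grp qs ≤ H ∧
      ∀ g ∈ H, ∀ q ∈ E.grp qs, g * q * g⁻¹ ∈ E.grp qs := by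
  simp only [subOK, Bool.and_eq_true, allL_iff] at h
  have h1 := Enc.isChain_of_ssOK (fun P hP => E.exists_pk_of_valid (h.1.1 P hP).1) h.1.2
  exact ⟨h1, Enc.grp_le fun P hP => hH.inG_of_sift (h.1.1 P hP).1 (h.1.1 P hP).2,
    he ▸ h1.norm_of_normOK h.2⟩

theorem odd_of_ok {g : Equiv.Perm α} (h : oddOK k M n (E.pk g) = true) : Odd (orderOf g) := by
  have h1 : ordN k M n (E.pk g) 16 % 2 = 1 := beq_iff.1 h
  rw [E.orderOf_eq_ordN g (fuel := 16) (by omega)]
  exact Nat.odd_iff.2 h1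

/-- all the checks for `SS W w = ⟨xg⟩`, where `m` is central in `W` -/
noncomputable def typOK (k M n : ℕ) (WL : List Lev) (m w : ℕ) (Os cg : List ℕ) (cC : List LevCert)
    (xg : List ℕ) (cX : List LevCert) (j : ℕ) : Bool :=
  upI k M n WL 0 [(w, w), (comp k M n m w, comp k M n m w)] [] Os &&
    Nat.beq (prodCnt n Os) (chainCard n (cC.map LevCert.L)) && centOK k M n WL [w] cC cg &&
    subOK k M n (cC.map LevCert.L) cg xg cX && allL xg (oddOK k M n) &&
    Nat.beq (chainCard n (cC.map LevCert.L)) (Nat.mul (Nat.pow 2 j) (chainCard n (cX.map LevCert.L)))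

theorem of_typOK {W : Subgroup (Equiv.Perm α)} {WL : List Lev} (hW : E.IsChain WL W)
    {m w : Equiv.Perm α} (hm : ∀ g ∈ W, Commute g m) {Os cg xg : List ℕ} {cC cX : List LevCert} {j : ℕ}
    (h : typOK k M n WL (E.pk m) (E.pk w) Os cg cC xg cX j = true) :
    E.IsChain (cX.map LevCert.L) (SS W w) ∧ SS W w = E.grp xg := by
  have := E.finite
  simp only [typOK, Bool.and_eq_true, allL_iff, beq_iff, ← E.pk_mul] at h
  obtain ⟨⟨⟨⟨⟨h1, h2⟩, h3⟩, h4⟩, h5⟩, h6⟩ := h
  have h7 := hW.card_le_of_upI (E.fixes_zero _) h1 (Z := W ⊓ centralizer {w}) fun g hg => by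
    have e := mem_centralizer_singleton_iff.1 hg.2
    refine ⟨?_, by simp⟩
    simp only [List.forall_mem_cons, E.perm_pk]
    exact ⟨e, ((hm g hg.1).mul_right e).eq, by simp⟩
  rw [← inf_assoc, inf_idem, h2] at h7
  obtain ⟨h8, h9⟩ := hW.of_centOK h3 (S := {w}) (by simp) h7
  obtain ⟨e1, e2, e3⟩ := of_subOK h8 h9 h4
  have e : SS W w = E.grp xg := le_antisymm ((closure_le _).2 fun y hy =>
    mem_of_coprime e2 e3 (j := 2 ^ j) (by rw [h8.card, e1.card]; exact h6)
      ⟨hy.1, mem_centralizer_singleton_iff.2 hy.2.2⟩ (Nat.Coprime.pow_right _ hy.2.1.coprime_two_right))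
    (Enc.grp_induction fun g hg => subset_closure ⟨(e2 (subset_closure hg)).1, odd_of_ok (h5 _ hg),
      mem_centralizer_singleton_iff.1 (e2 (subset_closure hg)).2⟩)
  exact ⟨e ▸ e1, e⟩

end Cfsg.Agent.STD.O8
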