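import Cfsg.Agent.STD.O8Inc

/-! The restriction of a permutation to an interval of points as an incidence. -/

set_option autoImplicit false

namespace Cfsg.Agent.STD.O8

open Cfsg.Agent.H14

noncomputable def rowD (c x : ℕ) : ℕ := Nat.shiftRight (Nat.shiftLeft 1 x) c

noncomputable def resOK (k M n k' M' n' c P Q : ℕ) : Bool :=
  valid k M n P && valid k' M' n' Q &&
    allN n' fun p => Nat.beq (app k M P (Nat.add c p)) (Nat.add c (app k' M' Q p))

theorem tb_rowD (c x p : ℕ) : tb (rowD c x) p = decide (x = c + p) := by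
  rw [tb_eq, show rowD c x = 2 ^ x >>> c by rw [← Nat.one_shiftLeft]; rfl, Nat.testBit_shiftRight,
    Nat.testBit_two_pow]

theorem colOK_rowD {n n' c : ℕ} (h : c + n' ≤ n) : colOK n n' (rowD c) = true := by
  simp only [colOK, allN_iff, Bool.or_eq_true, beq_iff, anyN_iff, force_eq, Bool.and_eq_true, tb_rowD]
  exact fun p hp q _ => or_iff_not_imp_left.2 fun e => ⟨c + p, by omega, by simp, by simpa using e⟩

theorem incOK_of_res {α : Type*} {n k M n' k' M' c P Q : ℕ} (E : Enc α n k M) (hc : c + n' ≤ n)
    (h : resOK k M n k' M' n' c P Q = true) : incOK k M n k' M' n' (rowD c) P Q = true := by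
  simp only [resOK, Bool.and_eq_true, allN_iff, beq_iff] at h
  simp only [incOK, Bool.and_eq_true, allN_iff, force_eq, tb_rowD]
  refine ⟨h.1, fun x hx p hp => ?_⟩
  have e : app k M P x = c + app k' M' Q p ↔ x = c + p := by
    rw [← show app k M P (c + p) = c + app k' M' Q p from h.2 p hp, ← E.pk_perm h.1.1,
      ← E.ix_pt x hx, ← E.ix_pt (c + p) (by omega), E.app_pk, E.app_pk]
    simp only [E.ix_injective.eq_iff, EmbeddingLike.apply_eq_iff_eq]
  rw [decide_eq_decide.2 e]
  cases decide (x = c + p) <;> rfl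

end Cfsg.Agent.STD.O8
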